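import Cfsg.Agent.H611.RealSection
import Cfsg.Agent.H611.JRReal
import Cfsg.Agent.S0135

/-!
# Fixed characters of simple groups with abelian Sylow 2-subgroups

`exists_even`: a nonabelian simple group with abelian Sylow 2-subgroups has an irreducible character
of even degree fixed by the twist (assuming Walter's theorem in the form `Step`, `CentThm`).
-/

set_option autoImplicit false

namespace Cfsg.Agent.H611.AbelEven

open Cfsg Cfsg.Agent.Walter.Types Cfsg.Agent.Walter.Main Cfsg.Agent.Blocks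
open Cfsg.Agent.H611.EvenFixed

universe u

theorem of_psl {G : Type u} [Group G] [Finite G] {F : Type} [Field F] [Fintype F]
    (hF : (∃ n : ℕ, 2 ≤ n ∧ Fintype.card F = 2 ^ n) ∨
      (Fintype.card F % 8 = 3 ∨ Fintype.card F % 8 = 5) ∧ 5 ≤ Fintype.card F)
    (e : G ≃* Matrix.ProjectiveSpecialLinearGroup (Fin 2) F) {k : ℕ} (h : Twist G k) :
    ∃ χ : IrrCharacter G, Even (charDegree (χ : G → ℂ)) ∧
      ∀ g, (χ : G → ℂ) (g ^ k) = (χ : G → ℂ) g := by
  obtain ⟨x, hx1, hodd, hreal, hcomm⟩ := Cfsg.Agent.H611.PslTwo.exists_real (F := F) hF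
  refine Cfsg.Agent.H611.RealSection.exists_even_of_comm h (e.symm x) ?_ ?_ ?_ ?_
  · intro h1
    apply hx1
    rw [← e.apply_symm_apply x, h1, map_one]
  · rwa [e.symm.orderOf_eq]
  · obtain ⟨c, hc⟩ := isConj_iff.1 hreal
    refine isConj_iff.2 ⟨e.symm c, ?_⟩
    rw [← map_mul, ← map_inv, ← map_mul, hc, map_inv]
  · intro a b ha hb
    have ha' : Commute (e a) x := by
      have := ha.map e
      rwa [e.apply_symm_apply] at this
    have hb' : Commute (e b) x := by
      have := hb.map e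
      rwa [e.apply_symm_apply] at this
    have h1 := (hcomm _ _ ha' hb').map e.symm
    rwa [e.symm_apply_apply, e.symm_apply_apply] at h1

theorem exists_even (hstep : Step.{u}) (hC : CentThm.{u}) {G : Type u} [Group G] [Finite G]
    [IsSimpleGroup G] (hna : ¬ IsMulCommutative G) (P : Sylow 2 G)
    (hP : IsMulCommutative (P : Subgroup G)) {k : ℕ} (h : Twist G k) :
    ∃ χ : IrrCharacter G, Even (charDegree (χ : G → ℂ)) ∧
      ∀ g, (χ : G → ℂ) (g ^ k) = (χ : G → ℂ) g := by
  rcases wType_of_step hstep G inferInstance hna P (comm_of_isMulCommutative hP) with hW | hW | hW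
  · obtain ⟨F, i1, i2, n, hn, hF, ⟨e⟩⟩ := hW
    exact of_psl (Or.inl ⟨n, hn, hF⟩) e h
  · obtain ⟨F, i1, i2, hF, h5, ⟨e⟩⟩ := hW
    exact of_psl (Or.inr ⟨hF, h5⟩) e h
  · obtain ⟨x, hx1, hreal, hodd⟩ := Cfsg.Agent.H611.JRReal.exists_real hC hna hW
    exact Cfsg.Agent.H611.RealSection.exists_even_of_odd h x hx1 hreal hodd

theorem two_dvd_card {G : Type u} [Group G] [Finite G] {χ : IrrCharacter G}
    (h : Even (charDegree (χ : G → ℂ))) : 2 ∣ Nat.card G := by
  obtain ⟨n, ρ, hρ, hρ'⟩ := χ.2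
  have h2 : Module.finrank ℂ (Fin n → ℂ) ∣ Nat.card G := Cfsg.Agent.S0135.result ρ
  have h3 : charDegree (χ : G → ℂ) = n := by
    apply Basic.charDegree_of_eq
    rw [← hρ', Representation.char_one]
    simp
  rw [Module.finrank_fin_fun, ← h3] at h2
  exact (even_iff_two_dvd.1 h).trans h2

end Cfsg.Agent.H611.AbelEven
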